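import Mathlib
import Cfsg.Prelude.Def_Transfer
import Cfsg.Agent.Transfer.FrobeniusFusion

/-!
# S4891: group theory for the reduction

* `frat`        : Frattini argument modulo a normal subgroup;
* `SN P K`      : `P K / K` is self-normalizing in `G / K`;
* `mem_of_sn`   : then the `p`-regular elements which normalize `P` lie in `K`;
* `comm_of_cent`: coprime action on `P` trivial on `Q` and on `P / Q`;
* `hasCompl`    : if the `p`-regular elements of `N_G(P)` centralize `P`, then `N_G(P)` has a normal `p`-complement.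
-/

set_option autoImplicit false

open Subgroup
open scoped Pointwise

namespace Cfsg.Agent.H627.BR

open Cfsg

universe u

variable {p : ℕ} [hp : Fact p.Prime] {G : Type u} [Group G]

/-- `P K / K` is a self-normalizing subgroup of `G / K` -/
def SN (P K : Subgroup G) : Prop :=
  ∀ g : G, (∀ x ∈ P, g * x * g⁻¹ ∈ P ⊔ K) → g ∈ P ⊔ K

/-- Frattini argument: an element normalizing `P K` normalizes `P` up to `K` -/
theorem frat [Finite G] (P : Sylow p G) (K : Subgroup G) [K.Normal] {g : G}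
    (hg : ∀ x ∈ (P : Subgroup G), g * x * g⁻¹ ∈ (P : Subgroup G) ⊔ K) :
    ∃ k ∈ K, ∀ x ∈ (P : Subgroup G), (k⁻¹ * g) * x * (k⁻¹ * g)⁻¹ ∈ (P : Subgroup G) := by
  have hgP : ((g • P : Sylow p G) : Subgroup G) ≤ (P : Subgroup G) ⊔ K := by
    intro y hy
    rw [Sylow.smul_def] at hy
    change y ∈ (MulAut.conj g • (P : Subgroup G) : Subgroup G) at hy
    rw [Subgroup.mem_smul_pointwise_iff_exists] at hy
    obtain ⟨x, hx, rfl⟩ := hy
    exact hg x hx
  obtain ⟨l, hl⟩ := MulAction.exists_smul_eq ↥((P : Subgroup G) ⊔ K) (P.subtype le_sup_left)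
    ((g • P).subtype hgP)
  obtain ⟨k, hk, x, hx, hkx⟩ := Subgroup.mem_sup_of_normal_left.1
    (show (l : G) ∈ K ⊔ (P : Subgroup G) by rw [sup_comm]; exact l.2)
  refine ⟨k, hk, fun y hy => ?_⟩
  -- `g y g⁻¹ ∈ g • P`
  have h1 : g * y * g⁻¹ ∈ ((g • P : Sylow p G) : Subgroup G) := by
    rw [Sylow.smul_def]
    change g * y * g⁻¹ ∈ (MulAut.conj g • (P : Subgroup G) : Subgroup G)
    rw [Subgroup.mem_smul_pointwise_iff_exists]
    exact ⟨y, hy, rfl⟩
  have h2 : (⟨g * y * g⁻¹, hg y hy⟩ : ↥((P : Subgroup G) ⊔ K)) ∈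
      ((l • P.subtype le_sup_left : Sylow p ↥((P : Subgroup G) ⊔ K)) : Subgroup ↥((P : Subgroup G) ⊔ K)) := by
    rw [hl]
    exact h1
  rw [Sylow.smul_def] at h2
  change _ ∈ (MulAut.conj l • ((P.subtype le_sup_left : Sylow p ↥((P : Subgroup G) ⊔ K)) :
    Subgroup ↥((P : Subgroup G) ⊔ K)) : Subgroup ↥((P : Subgroup G) ⊔ K)) at h2
  rw [Subgroup.mem_smul_pointwise_iff_exists] at h2
  obtain ⟨z, hz, hzy⟩ := h2
  have hz' : (z : G) ∈ (P : Subgroup G) := hz
  have h3 : (l : G) * z * (l : G)⁻¹ = g * y * g⁻¹ := congrArg Subtype.val hzy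
  have h4 : (k⁻¹ * g) * y * (k⁻¹ * g)⁻¹ = x * z * x⁻¹ := by
    calc (k⁻¹ * g) * y * (k⁻¹ * g)⁻¹ = k⁻¹ * (g * y * g⁻¹) * k := by group
      _ = k⁻¹ * ((l : G) * z * (l : G)⁻¹) * k := by rw [h3]
      _ = x * z * x⁻¹ := by rw [← hkx]; group
  rw [h4]
  exact (P : Subgroup G).mul_mem ((P : Subgroup G).mul_mem hx hz') ((P : Subgroup G).inv_mem hx)

/-- an element of `P K` of order prime to `p` lies in `K` -/
theorem mem_of_mem_sup {P K : Subgroup G} [K.Normal] (hP : IsPGroup p P) {g : G} (hg : g ∈ P ⊔ K)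
    (hr : ¬ p ∣ orderOf g) : g ∈ K := by
  obtain ⟨k, hk, x, hx, hkx⟩ := Subgroup.mem_sup_of_normal_left.1
    (show g ∈ K ⊔ P by rw [sup_comm]; exact hg)
  obtain ⟨n, hn⟩ := hP ⟨x, hx⟩
  have hn' : x ^ p ^ n = 1 := congrArg Subtype.val hn
  have e : (g : G ⧸ K) = (x : G ⧸ K) := by
    rw [← hkx, QuotientGroup.mk_mul, (QuotientGroup.eq_one_iff k).2 hk, one_mul]
  have h1 : (g : G ⧸ K) ^ p ^ n = 1 := by
    rw [e, ← QuotientGroup.mk_pow, hn', QuotientGroup.mk_one]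
  have h2 : (g : G ⧸ K) ^ orderOf g = 1 := by
    rw [← QuotientGroup.mk_pow, pow_orderOf_eq_one, QuotientGroup.mk_one]
  have h3 : orderOf (g : G ⧸ K) ∣ Nat.gcd (p ^ n) (orderOf g) :=
    Nat.dvd_gcd (orderOf_dvd_of_pow_eq_one h1) (orderOf_dvd_of_pow_eq_one h2)
  have h4 : Nat.gcd (p ^ n) (orderOf g) = 1 :=
    Nat.Coprime.pow_left n ((Nat.Prime.coprime_iff_not_dvd hp.out).2 hr)
  rw [h4] at h3
  exact (QuotientGroup.eq_one_iff g).1 (orderOf_eq_one_iff.1 (Nat.dvd_one.1 h3))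

theorem mem_of_sn {P K : Subgroup G} [K.Normal] (hP : IsPGroup p P) (hs : SN P K) {g : G}
    (hg : ∀ x ∈ P, g * x * g⁻¹ ∈ P) (hr : ¬ p ∣ orderOf g) : g ∈ K :=
  mem_of_mem_sup hP (hs g fun x hx => (le_sup_left : P ≤ P ⊔ K) (hg x hx)) hr

/-- `SN` from the quotient -/
theorem sn_of_quot [Finite G] {P K : Subgroup G} [K.Normal]
    (h : normalizer ((P.map (QuotientGroup.mk' K) : Subgroup (G ⧸ K)) : Set (G ⧸ K)) =
      P.map (QuotientGroup.mk' K)) : SN P K := by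
  intro g hg
  have hmap : ∀ y : G, (y : G ⧸ K) ∈ P.map (QuotientGroup.mk' K) ↔ y ∈ P ⊔ K := by
    intro y
    have h1 : (P ⊔ K) = (P.map (QuotientGroup.mk' K)).comap (QuotientGroup.mk' K) := by
      rw [Subgroup.comap_map_eq, QuotientGroup.ker_mk']
    rw [h1]
    rfl
  have h1 : (g : G ⧸ K) ∈ normalizer ((P.map (QuotientGroup.mk' K) : Subgroup (G ⧸ K)) : Set (G ⧸ K)) := by
    apply Subgroup.mem_normalizer_fintype
    rintro _ ⟨x, hx, rfl⟩
    have h2 := (hmap _).2 (hg x hx)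
    rw [QuotientGroup.mk_mul, QuotientGroup.mk_mul, QuotientGroup.mk_inv] at h2
    exact h2
  rw [h] at h1
  exact (hmap g).1 h1

/-- coprime action: `g` centralizes `Q` and `[g, P] ≤ Q` -/
theorem comm_of_cent {P Q : Subgroup G} (hQ : IsPGroup p Q) {g : G} (hc : ∀ x ∈ Q, g * x = x * g)
    (h : ∀ x ∈ P, g * x * g⁻¹ * x⁻¹ ∈ Q) (hr : ¬ p ∣ orderOf g) : ∀ x ∈ P, g * x = x * g := by
  intro x hx
  set q : G := g * x * g⁻¹ * x⁻¹ with hq
  have h1 : g * x * g⁻¹ = q * x := by rw [hq]; group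
  have h2 : ∀ n : ℕ, g ^ n * x * (g ^ n)⁻¹ = q ^ n * x := by
    intro n
    induction n with
    | zero => simp
    | succ n ih =>
      have h3 : g * q ^ n = q ^ n * g := hc _ (Q.pow_mem (h x hx) n)
      calc g ^ (n + 1) * x * (g ^ (n + 1))⁻¹ = g * (g ^ n * x * (g ^ n)⁻¹) * g⁻¹ := by
            rw [pow_succ' g n]; group
        _ = g * q ^ n * x * g⁻¹ := by rw [ih]; group
        _ = q ^ n * (g * x * g⁻¹) := by rw [h3]; group
        _ = q ^ (n + 1) * x := by rw [h1, pow_succ]; group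
  have h3 := h2 (orderOf g)
  rw [pow_orderOf_eq_one, one_mul, inv_one, mul_one] at h3
  have h4 : q ^ orderOf g = 1 := by
    have h5 : 1 * x = q ^ orderOf g * x := by rw [one_mul]; exact h3
    exact (mul_right_cancel h5).symm
  obtain ⟨n, hn⟩ := hQ ⟨q, h x hx⟩
  have hn' : q ^ p ^ n = 1 := congrArg Subtype.val hn
  have h5 : orderOf q ∣ Nat.gcd (p ^ n) (orderOf g) :=
    Nat.dvd_gcd (orderOf_dvd_of_pow_eq_one hn') (orderOf_dvd_of_pow_eq_one h4)
  rw [Nat.Coprime.pow_left n ((Nat.Prime.coprime_iff_not_dvd hp.out).2 hr)] at h5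
  have h6 : q = 1 := orderOf_eq_one_iff.1 (Nat.dvd_one.1 h5)
  rw [h6, one_mul] at h1
  exact mul_inv_eq_iff_eq_mul.1 h1

/-- if the `p`-regular elements of `N_G(P)` centralize `P`, then `N_G(P)` has a normal `p`-complement -/
theorem hasCompl [Finite G] (P : Sylow p G)
    (h : ∀ g : G, ¬ p ∣ orderOf g → (∀ x ∈ (P : Subgroup G), g * x * g⁻¹ ∈ (P : Subgroup G)) →
      ∀ x ∈ (P : Subgroup G), g * x = x * g) :
    HasNormalPComplement p ↥(normalizer ((P : Subgroup G) : Set G)) := by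
  rw [Transfer.FrobeniusFusion.hasNormalPComplement_iff_localCondition]
  intro D hD g hg hgp
  have hD' : D.map (normalizer ((P : Subgroup G) : Set G)).subtype ≤ (P : Subgroup G) := by
    have h1 : IsPGroup p ((P : Subgroup G) ⊔ D.map (normalizer ((P : Subgroup G) : Set G)).subtype : Subgroup G) := by
      rw [sup_comm]
      apply IsPGroup.to_sup_of_normal_right' (hD.map _) P.isPGroup'
      rintro _ ⟨x, -, rfl⟩
      exact x.2
    exact le_sup_right.trans (le_of_eq (P.is_maximal' h1 le_sup_left))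
  have hgr : ¬ p ∣ orderOf (g : G) := by
    rw [Subgroup.orderOf_coe]
    intro hdvd
    exact (Nat.Prime.coprime_iff_not_dvd hp.out).1 (Nat.coprime_comm.1 hgp) hdvd
  have key := h (g : G) hgr (fun x hx => (Subgroup.mem_normalizer_iff.1 g.2 x).1 hx)
  rw [Subgroup.mem_centralizer_iff]
  intro d hd
  apply Subtype.ext
  exact (key (d : G) (hD' ⟨d, hd, rfl⟩)).symm

/-- a `p`-element normalizing the Sylow subgroup `P` lies in `P` -/
theorem mem_of_pel (P : Sylow p G) {m : G} (hm : ∃ k : ℕ, m ^ p ^ k = 1)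
    (hmP : ∀ x ∈ (P : Subgroup G), m * x * m⁻¹ ∈ (P : Subgroup G)) [Finite G] : m ∈ (P : Subgroup G) := by
  have h1 : IsPGroup p ((P : Subgroup G) ⊔ zpowers m : Subgroup G) := by
    rw [sup_comm]
    apply IsPGroup.to_sup_of_normal_right'
    · rw [IsPGroup.iff_card]
      rw [Nat.card_zpowers]
      obtain ⟨k, hk⟩ := hm
      obtain ⟨j, -, hj⟩ := (Nat.dvd_prime_pow hp.out).1 (orderOf_dvd_of_pow_eq_one hk)
      exact ⟨j, hj⟩
    · exact P.isPGroup'
    · rw [zpowers_le]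
      exact Subgroup.mem_normalizer_fintype hmP
  exact (le_sup_right.trans (le_of_eq (P.is_maximal' h1 le_sup_left)) : zpowers m ≤ (P : Subgroup G)) (mem_zpowers m)

/-- `N_N(P) ≤ P` if it contains no nontrivial `p`-regular elements -/
theorem mem_of_exc [Finite G] (P : Sylow p G) (N : Subgroup G)
    (hex : ∀ g ∈ N, ¬ p ∣ orderOf g → (∀ x ∈ (P : Subgroup G), g * x * g⁻¹ ∈ (P : Subgroup G)) → g = 1)
    {m : G} (hm : m ∈ N) (hmP : ∀ x ∈ (P : Subgroup G), m * x * m⁻¹ ∈ (P : Subgroup G)) : m ∈ (P : Subgroup G) := by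
  apply mem_of_pel P _ hmP
  have hm0 : orderOf m ≠ 0 := (orderOf_pos m).ne'
  refine ⟨(orderOf m).factorization p, hex _ (N.pow_mem hm _) ?_ ?_⟩
  · rw [orderOf_pow_of_dvd (pow_ne_zero _ hp.out.ne_zero) (Nat.ordProj_dvd _ _)]
    exact Nat.not_dvd_ordCompl hp.out hm0
  · have h : ∀ n : ℕ, ∀ x ∈ (P : Subgroup G), m ^ n * x * (m ^ n)⁻¹ ∈ (P : Subgroup G) := by
      intro n
      induction n with
      | zero => intro x hx; simpa using hx
      | succ n ih =>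
        intro x hx
        have e : m ^ (n + 1) * x * (m ^ (n + 1))⁻¹ = m * (m ^ n * x * (m ^ n)⁻¹) * m⁻¹ := by
          rw [pow_succ' m n]; group
        rw [e]
        exact hmP _ (ih x hx)
    exact h _

/-- the second alternative: if no nontrivial `p`-regular element of `N` normalizes `P`, then a `p`-regular element of
`N C_G(Q)` which normalizes `P` centralizes `Q = P ∩ N` -/
theorem cent_of_exc [Finite G] (P : Sylow p G) (N : Subgroup G) [hN : N.Normal] (Q : Subgroup G)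
    (hQ : Q = (P : Subgroup G) ⊓ N)
    (hex : ∀ g ∈ N, ¬ p ∣ orderOf g → (∀ x ∈ (P : Subgroup G), g * x * g⁻¹ ∈ (P : Subgroup G)) → g = 1)
    {g : G} (hg : g ∈ N ⊔ centralizer (Q : Set G)) (hr : ¬ p ∣ orderOf g)
    (hgP : ∀ x ∈ (P : Subgroup G), g * x * g⁻¹ ∈ (P : Subgroup G)) : g ∈ centralizer (Q : Set G) := by
  have hQmem : ∀ x, x ∈ Q ↔ x ∈ (P : Subgroup G) ∧ x ∈ N := fun x => by rw [hQ]; exact Iff.rfl
  have hPL : (P : Subgroup G) ≤ normalizer (Q : Set G) := by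
    intro x hx
    apply Subgroup.mem_normalizer_fintype
    intro y hy
    have hy' := (hQmem y).1 hy
    exact (hQmem _).2 ⟨(P : Subgroup G).mul_mem ((P : Subgroup G).mul_mem hx hy'.1) ((P : Subgroup G).inv_mem hx),
      hN.conj_mem _ hy'.2 x⟩
  have hgL : g ∈ normalizer (Q : Set G) := by
    apply Subgroup.mem_normalizer_fintype
    intro y hy
    have hy' := (hQmem y).1 hy
    exact (hQmem _).2 ⟨hgP y hy'.1, hN.conj_mem _ hy'.2 g⟩
  have hCL : centralizer (Q : Set G) ≤ normalizer (Q : Set G) := centralizer_le_normalizer _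
  have hCn : ∀ a ∈ normalizer (Q : Set G), ∀ b ∈ centralizer (Q : Set G), a * b * a⁻¹ ∈ centralizer (Q : Set G) := by
    intro a ha b hb
    rw [Subgroup.mem_centralizer_iff] at hb ⊢
    intro y hy
    have h1 : a⁻¹ * y * a ∈ Q := (Subgroup.mem_normalizer_iff''.1 ha y).1 hy
    have h2 := hb _ h1
    calc y * (a * b * a⁻¹) = a * ((a⁻¹ * y * a) * b) * a⁻¹ := by group
      _ = a * (b * (a⁻¹ * y * a)) * a⁻¹ := by rw [h2]
      _ = a * b * a⁻¹ * y := by group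
  obtain ⟨n, hn, c, hc, hnc⟩ := Subgroup.mem_sup_of_normal_left.1 hg
  have hnL : n ∈ normalizer (Q : Set G) := by
    have h1 : n = g * c⁻¹ := by rw [← hnc]; group
    rw [h1]
    exact mul_mem hgL (inv_mem (hCL hc))
  -- the group `Γ = N_N(Q) P`
  set Γ : Subgroup G := (N ⊓ normalizer (Q : Set G)) ⊔ (P : Subgroup G) with hΓ
  have hPΓ : (P : Subgroup G) ≤ Γ := le_sup_right
  have hΓL : Γ ≤ normalizer (Q : Set G) := sup_le inf_le_right hPL
  have hΓN : Γ ≤ N ⊔ (P : Subgroup G) := sup_le_sup_right inf_le_left _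
  have hnΓ : n ∈ Γ := (le_sup_left : N ⊓ normalizer (Q : Set G) ≤ Γ) ⟨hn, hnL⟩
  have hK : ((centralizer (Q : Set G)).subgroupOf Γ).Normal := by
    constructor
    intro b hb a
    exact hCn a (hΓL a.2) b hb
  obtain ⟨k, hk, hkn⟩ := frat (P.subtype hPΓ) ((centralizer (Q : Set G)).subgroupOf Γ) (g := ⟨n, hnΓ⟩) (by
    rintro ⟨x, hxΓ⟩ hx
    have hxP : x ∈ (P : Subgroup G) := hx
    have h1 : g * x * g⁻¹ ∈ (P : Subgroup G) := hgP x hxP
    have h2 : g * (x⁻¹ * c⁻¹ * x * c) * g⁻¹ ∈ centralizer (Q : Set G) := by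
      apply hCn g hgL
      have h3 := hCn x⁻¹ (inv_mem (hPL hxP)) c⁻¹ (inv_mem hc)
      rw [inv_inv] at h3
      exact mul_mem h3 hc
    have h3 : n * x * n⁻¹ = (g * x * g⁻¹) * (g * (x⁻¹ * c⁻¹ * x * c) * g⁻¹) := by
      rw [← hnc]; group
    have h4 : g * (x⁻¹ * c⁻¹ * x * c) * g⁻¹ ∈ Γ := by
      have h5 : g * (x⁻¹ * c⁻¹ * x * c) * g⁻¹ = (g * x * g⁻¹)⁻¹ * (n * x * n⁻¹) := by rw [h3]; group
      rw [h5]
      exact mul_mem (inv_mem (hPΓ h1)) (mul_mem (mul_mem hnΓ hxΓ) (inv_mem hnΓ))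
    have h5 : (⟨n, hnΓ⟩ : Γ) * ⟨x, hxΓ⟩ * (⟨n, hnΓ⟩ : Γ)⁻¹ =
        ⟨g * x * g⁻¹, hPΓ h1⟩ * ⟨g * (x⁻¹ * c⁻¹ * x * c) * g⁻¹, h4⟩ := Subtype.ext h3
    rw [h5]
    exact mul_mem (le_sup_left (α := Subgroup Γ) (show (⟨g * x * g⁻¹, hPΓ h1⟩ : Γ) ∈
      ((P.subtype hPΓ : Sylow p Γ) : Subgroup Γ) from h1)) (le_sup_right (α := Subgroup Γ) (show
      (⟨g * (x⁻¹ * c⁻¹ * x * c) * g⁻¹, h4⟩ : Γ) ∈ (centralizer (Q : Set G)).subgroupOf Γ from h2)))
  have hkC : (k : G) ∈ centralizer (Q : Set G) := hk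
  have hhP : ∀ x ∈ (P : Subgroup G), ((k : G)⁻¹ * n) * x * ((k : G)⁻¹ * n)⁻¹ ∈ (P : Subgroup G) := fun x hx =>
    hkn ⟨x, hPΓ hx⟩ hx
  have hh : (k : G)⁻¹ * n ∈ (P : Subgroup G) := by
    obtain ⟨m, hm, x, hx, hmx⟩ := Subgroup.mem_sup_of_normal_left.1
      (hΓN (mul_mem (inv_mem k.2) hnΓ) : (k : G)⁻¹ * n ∈ N ⊔ (P : Subgroup G))
    have hmP : m ∈ (P : Subgroup G) := by
      apply mem_of_exc P N hex hm
      intro y hy
      have h1 := hhP (x⁻¹ * y * x) ((P : Subgroup G).mul_mem ((P : Subgroup G).mul_mem ((P : Subgroup G).inv_mem hx) hy) hx)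
      rw [← hmx] at h1
      have h2 : m * x * (x⁻¹ * y * x) * (m * x)⁻¹ = m * y * m⁻¹ := by group
      rwa [h2] at h1
    rw [← hmx]
    exact (P : Subgroup G).mul_mem hmP hx
  -- `g = k h c`
  have hgPC : g ∈ centralizer (Q : Set G) ⊔ (P : Subgroup G) := by
    have h1 : g = (k : G) * (((k : G)⁻¹ * n) * c * ((k : G)⁻¹ * n)⁻¹) * ((k : G)⁻¹ * n) := by
      rw [← hnc]; group
    rw [h1]
    exact mul_mem ((le_sup_left : _ ≤ centralizer (Q : Set G) ⊔ (P : Subgroup G)) (mul_mem hkC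
      (hCn _ (hPL hh) c hc))) ((le_sup_right : _ ≤ centralizer (Q : Set G) ⊔ (P : Subgroup G)) hh)
  -- reduce modulo the centralizer
  have hK' : ((centralizer (Q : Set G)).subgroupOf (normalizer (Q : Set G))).Normal := by
    constructor
    intro b hb a
    exact hCn a a.2 b hb
  have h1 := mem_of_mem_sup (p := p) (P := (P : Subgroup G).subgroupOf (normalizer (Q : Set G)))
    (K := (centralizer (Q : Set G)).subgroupOf (normalizer (Q : Set G))) (P.isPGroup'.comap_subtype)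
    (g := ⟨g, hgL⟩) (by
      rw [← Subgroup.subgroupOf_sup hPL hCL, Subgroup.mem_subgroupOf, sup_comm]
      exact hgPC) (by rwa [← Subgroup.orderOf_coe])
  exact h1

end Cfsg.Agent.H627.BR
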